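import Cfsg.Agent.H406.HT.Elt
import Cfsg.Agent.H630.ExcH
import Cfsg.Agent.H755.PQ.TorB

/-!
# S4933, part (O): the counts for twisted tori (helper406)

* `not_dvd_count` : `f (τ i) = u f i`, `u` of order `e'`, fewer than `r e'` indices: the count is prime to `r`;
* `exists_big` : from a certificate, `D.nroots < r e'`, `e'` the order of `± Q` modulo `r`;
* `exists_small` : from an explicit table (`SmallCk`), given residues of `Q`;
* `exists_node` : `psi L = κ L` with `L` a coroot (`NodeCk`), `r ≥ 5`.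
-/

set_option autoImplicit false
set_option linter.unusedSectionVars false

namespace Cfsg.Agent.H406.HT

open CoxeterSystem Cfsg Cfsg.Lie Cfsg.Lie.ChevalleyDatum
open Cfsg.Agent.ChevalleyStructure Cfsg.Agent.ChevalleyStructure.Elts Cfsg.Agent.ChevalleyStructure.CoxeterGeom
  Cfsg.Agent.ChevalleyStructure.CoxeterGeomTypes Cfsg.Agent.ChevalleyStructure.NPerm
open Cfsg.Agent.Tits.Roots Cfsg.Agent.Tits.Core Cfsg.Agent.Nodes Cfsg.Agent.Nodes.Reps Cfsg.Agent.Nodes.BNOf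
  Cfsg.Agent.Nodes.RGDChev Cfsg.Agent.Nodes.Bruhat Cfsg.Agent.Nodes.SubComb Cfsg.Agent.Nodes.Coroot
open Cfsg.Agent.KFacts.RgdField Cfsg.Agent.KFacts.RgdChevCoord Cfsg.Agent.BpExc.TorCent Cfsg.Agent.BpExc.TorChev
open Cfsg.Agent.GpExc.Field Cfsg.Agent.BpExc.Tow Cfsg.Agent.BpExc.TowChev Cfsg.Agent.BpExc.Fr
  Cfsg.Agent.BpExc.LangFr Cfsg.Agent.LangThm Cfsg.Agent.BpExc Cfsg.Agent.H129.TorusChar Cfsg.Agent.H129.TorusMain
open Cfsg.Agent.H630.Exc Cfsg.Agent.H234.HT Cfsg.Agent.H130.WeylCk Cfsg.Agent.H130.PolyL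

universe u v

/-- **The counting lemma.** -/
theorem not_dvd_count {r : ℕ} (hr : r.Prime) {ι : Type*} [Finite ι] {f : ι → ZMod r} {τ : ι → ι}
    (hτ : Function.Injective τ) {u : ZMod r} (hf : ∀ i, f (τ i) = u * f i) {e' : ℕ}
    (he : orderOf u = e') (hbig : Nat.card ι < r * e') {i0 : ι} (hi0 : f i0 ≠ 0) :
    ¬ r ∣ Nat.card {i : ι // f i = f i0} := by
  have : Fact r.Prime := ⟨hr⟩
  intro hd
  have hpos : 0 < Nat.card {i : ι // f i = f i0} := by
    have : Nonempty {i : ι // f i = f i0} := ⟨⟨i0, rfl⟩⟩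
    exact Nat.card_pos
  have h1 : r ≤ Nat.card {i : ι // f i = f i0} := Nat.le_of_dvd hpos hd
  have hit : ∀ (j : ℕ) (i : ι), f (τ^[j] i) = u ^ j * f i := by
    intro j
    induction j with
    | zero => intro i; rw [Function.iterate_zero_apply, pow_zero, one_mul]
    | succ j ih => intro i; rw [Function.iterate_succ_apply', hf, ih, pow_succ]; ring
  have hinj : Function.Injective (fun a : Fin e' × {i : ι // f i = f i0} => τ^[(a.1 : ℕ)] a.2.1) := by
    rintro ⟨j, i, hi⟩ ⟨j', i', hi'⟩ h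
    have h2 : f (τ^[(j : ℕ)] i) = f (τ^[(j' : ℕ)] i') := congrArg f h
    rw [hit, hit, hi, hi'] at h2
    have h3 : u ^ (j : ℕ) = u ^ (j' : ℕ) := mul_right_cancel₀ hi0 h2
    have hju := j.2
    have hju' := j'.2
    have h4 : (j : ℕ) = (j' : ℕ) :=
      (IsPrimitiveRoot.orderOf u).pow_inj (by rw [he]; exact hju) (by rw [he]; exact hju') h3
    have h5 : j = j' := Fin.ext h4
    subst h5
    have h6 : i = i' := (hτ.iterate _) h
    subst h6
    rfl
  have h2 := Nat.card_le_card_of_injective _ hinj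
  rw [Nat.card_prod, Nat.card_fin] at h2
  have h3 : e' * r ≤ e' * Nat.card {i : ι // f i = f i0} := Nat.mul_le_mul_left _ h1
  have h4 := h3.trans h2
  rw [Nat.mul_comm] at h4
  omega

section Psi

variable {l : ℕ} {R : Module.End ℤ (Fin l → ℤ)} {Q : ℤ} {n : ℕ} {L : (Fin l → ℤ) →+ ℤ}

theorem psi_add (x y : Fin l → ℤ) : psi R Q n L (x + y) = psi R Q n L x + psi R Q n L y := by
  unfold psi
  rw [← Finset.sum_add_distrib]
  exact Finset.sum_congr rfl fun j _ => by rw [map_add, map_add, mul_add]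

/-- `psi` as a homomorphism -/
def psiH {l : ℕ} (R : Module.End ℤ (Fin l → ℤ)) (Q : ℤ) (n : ℕ) (L : (Fin l → ℤ) →+ ℤ) : (Fin l → ℤ) →+ ℤ :=
  AddMonoidHom.mk' (psi R Q n L) psi_add

theorem psi_neg (x : Fin l → ℤ) : psi R Q n L (-x) = - psi R Q n L x := map_neg (psiH R Q n L) x

/-- `psi (R x) ≡ Q psi x` -/
theorem psi_R (hR : R ^ n = 1) {r : ℕ} (hn : (Q : ZMod r) ^ n = 1) (x : Fin l → ℤ) :
    ((psi R Q n L (R x) : ℤ) : ZMod r) = (Q : ZMod r) * ((psi R Q n L x : ℤ) : ZMod r) := by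
  rcases Nat.eq_zero_or_pos n with rfl | hn0
  · unfold psi
    simp
  obtain ⟨m, rfl⟩ : ∃ m, n = m + 1 := ⟨n - 1, by omega⟩
  unfold psi
  rw [Finset.sum_range_succ, Finset.sum_range_succ']
  have h1 : ∀ j ∈ Finset.range m, Q ^ (m + 1 - j) * L ((R ^ j) (R x)) =
      Q * (Q ^ (m + 1 - (j + 1)) * L ((R ^ (j + 1)) x)) := by
    intro j hj
    rw [Finset.mem_range] at hj
    rw [pow_succ R j, Module.End.mul_apply, ← mul_assoc, ← pow_succ']
    congr 2
    omega
  have h2 : (R ^ m) (R x) = x := by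
    rw [← Module.End.mul_apply, ← pow_succ, hR, Module.End.one_apply]
  have h3 : m + 1 - m = 1 := by omega
  rw [Finset.sum_congr rfl h1, h2, h3, pow_one, pow_zero, Module.End.one_apply, Nat.sub_zero, ← Finset.mul_sum]
  push_cast
  rw [mul_add, hn, one_mul]

end Psi

variable {D : ChevalleyDatum} {l : ℕ} {M : CoxeterMatrix (Fin l)} (hp : IsType D l M)
  {W : Type*} [Group W] (cs : CoxeterSystem M W)

/-- the permutation of the roots -/
theorem exists_perm (w1 : W) {s0 : ℤ} (hs0 : s0 = 1 ∨ s0 = -1) :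
    ∃ τ : Fin D.nroots → Fin D.nroots, Function.Injective τ ∧
      ∀ s, vec D l (τ s) = s0 • rep cs hp.isCartan w1 (vec D l s) := by
  have h1 : ∀ s : Fin D.nroots, ∃ s' : Fin D.nroots, vec D l s' = s0 • rep cs hp.isCartan w1 (vec D l s) := by
    intro s
    have h2 : IsRoot cs hp.isCartan (vec D l s) := (isRoot_iff hp cs _).2 ⟨s, s.2, rfl⟩
    have h3 : IsRoot cs hp.isCartan (s0 • rep cs hp.isCartan w1 (vec D l s)) := by
      rcases hs0 with rfl | rfl
      · rw [one_smul]; exact h2.act w1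
      · rw [neg_smul, one_smul]; exact (h2.act w1).neg
    obtain ⟨s', hs', e⟩ := (isRoot_iff hp cs _).1 h3
    exact ⟨⟨s', hs'⟩, e⟩
  choose τ hτ using h1
  refine ⟨τ, fun a b hab => ?_, hτ⟩
  have h2 : s0 • rep cs hp.isCartan w1 (vec D l a) = s0 • rep cs hp.isCartan w1 (vec D l b) := by
    rw [← hτ, ← hτ, hab]
  have h3 : rep cs hp.isCartan w1 (vec D l a) = rep cs hp.isCartan w1 (vec D l b) := by
    rcases hs0 with rfl | rfl
    · rwa [one_smul, one_smul] at h2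
    · rw [neg_smul, neg_smul, one_smul, one_smul] at h2
      exact neg_injective h2
  have h4 := congrArg (rep cs hp.isCartan w1⁻¹) h3
  rw [← Module.End.mul_apply, ← Module.End.mul_apply, ← map_mul, inv_mul_cancel, map_one, Module.End.one_apply,
    Module.End.one_apply] at h4
  exact Fin.ext (vec_inj hp a.2 b.2 h4)

include hp in
/-- a nonzero functional modulo `r` is nonzero on a root -/
theorem exists_root_ne {r : ℕ} (ψ : (Fin l → ℤ) →+ ℤ) {x : Fin l → ℤ} (hx : ((ψ x : ℤ) : ZMod r) ≠ 0) :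
    ∃ s : Fin D.nroots, ((ψ (vec D l s) : ℤ) : ZMod r) ≠ 0 := by
  by_contra hcon
  push Not at hcon
  apply hx
  have h1 : ∀ i : Fin l, ((ψ (sr i) : ℤ) : ZMod r) = 0 := by
    intro i
    have h2 := hcon ⟨D.simple i, simple_lt hp.inList (lt_rank hp i)⟩
    rwa [vec_simple hp i] at h2
  rw [IsMC.eq_sum_sr x, map_sum, Int.cast_sum]
  refine Finset.sum_eq_zero fun i _ => ?_
  rw [map_zsmul, smul_eq_mul, Int.cast_mul, h1, mul_zero]

open Polynomial in
/-- **The count for large primes.** -/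
theorem exists_big {w1 : W} {n : ℕ} (hw : rep cs hp.isCartan w1 ^ n = 1) {Q : ℤ} {r : ℕ} (hr : r.Prime)
    (hQr : ¬ (r : ℤ) ∣ Q) (hn : orderOf (Q : ZMod r) = n) {a : ℕ} (ha : 0 < a)
    (x : Fin a → Fin l → ℤ) (y : Fin a → ((Fin l → ℤ) →ₗ[ℤ] ℤ)) (c : ℤ)
    (hc : ¬ (r : ℤ) ∣ c) (hx : ∀ i, aeval (rep cs hp.isCartan w1) (cyclotomic n ℤ) (x i) = 0)
    (hy : ∀ i i', ∀ j < (cyclotomic n ℤ).natDegree, y i ((rep cs hp.isCartan w1 ^ j) (x i')) =
      if i = i' ∧ j + 1 = (cyclotomic n ℤ).natDegree then c else 0)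
    {s0 : ℤ} (hs0 : s0 = 1 ∨ s0 = -1) {e' : ℕ} (he' : orderOf ((s0 * Q : ℤ) : ZMod r) = e')
    (hbig : D.nroots < r * e') :
    ∃ (L : (Fin l → ℤ) →+ ℤ) (c' : ZMod r), c' ≠ 0 ∧
      ¬ r ∣ Nat.card {s : Fin D.nroots // ((psi (rep cs hp.isCartan w1) Q n L (vec D l s) : ℤ) : ZMod r) = c'} := by
  have : Fact r.Prime := ⟨hr⟩
  have hrZ := Nat.prime_iff_prime_int.1 hr
  have hn0 : 0 < n := by rw [← hn]; exact ord_pos hr hQr
  have hrn : ¬ r ∣ n := by rw [← hn]; exact not_dvd_ord hr hQr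
  have hv : (r : ℤ) ∣ (cyclotomic n ℤ).eval Q := by rw [← hn]; exact dvd_cyclotomic hr hQr
  have hPm : (cyclotomic n ℤ).Monic := cyclotomic.monic n ℤ
  have hPd : 0 < (cyclotomic n ℤ).natDegree := by
    rw [natDegree_cyclotomic]
    exact Nat.totient_pos.2 hn0
  obtain ⟨i⟩ : Nonempty (Fin a) := ⟨⟨0, ha⟩⟩
  obtain ⟨zi, hzi⟩ : ∃ zi, zi = aeval (rep cs hp.isCartan w1) (cyclotomic n ℤ /ₘ (Polynomial.X - C Q)) (x i) := ⟨_, rfl⟩
  have hLz : y i zi = c := by
    rw [hzi]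
    refine H130.Cok.functional hPm hPd Q (y i) (x i) _ fun j hj => ?_
    rw [hy i i j hj]
    simp
  have h3 : ∀ j : ℕ, ∃ u : ℤ, y i ((rep cs hp.isCartan w1 ^ j) zi) = Q ^ j * c + r * u := by
    intro j
    obtain ⟨u, hu⟩ := Cfsg.Agent.H630.Exc.exists_eig hv (hx i) j
    exact ⟨y i u, by rw [hzi, hu, map_add, map_smul, map_smul, smul_eq_mul, smul_eq_mul, ← hzi, hLz]⟩
  choose u hu using h3
  have h5 : psi (rep cs hp.isCartan w1) Q n (y i).toAddMonoidHom zi =
      n * Q ^ n * c + r * ∑ j ∈ Finset.range n, Q ^ (n - j) * u j := by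
    unfold psi
    have h4 : ∀ j ∈ Finset.range n, Q ^ (n - j) * (y i).toAddMonoidHom ((rep cs hp.isCartan w1 ^ j) zi) =
        Q ^ n * c + r * (Q ^ (n - j) * u j) := by
      intro j hj
      rw [Finset.mem_range] at hj
      show Q ^ (n - j) * y i ((rep cs hp.isCartan w1 ^ j) zi) = _
      rw [hu j, mul_add, ← mul_assoc, ← pow_add, Nat.sub_add_cancel hj.le]
      ring
    rw [Finset.sum_congr rfl h4, Finset.sum_add_distrib, Finset.sum_const, Finset.card_range, ← Finset.mul_sum,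
      nsmul_eq_mul]
    ring
  have h6 : ((psi (rep cs hp.isCartan w1) Q n (y i).toAddMonoidHom zi : ℤ) : ZMod r) ≠ 0 := by
    rw [Ne, ZMod.intCast_zmod_eq_zero_iff_dvd, h5]
    intro h
    have h7 : (r : ℤ) ∣ n * Q ^ n * c := (Int.dvd_add_left (dvd_mul_right _ _)).1 h
    rcases hrZ.dvd_mul.1 h7 with h | h
    · rcases hrZ.dvd_mul.1 h with h | h
      · exact hrn (Int.natCast_dvd_natCast.1 h)
      · exact hQr (hrZ.dvd_of_dvd_pow h)
    · exact hc h
  obtain ⟨s, hs⟩ := exists_root_ne hp (psiH (rep cs hp.isCartan w1) Q n (y i).toAddMonoidHom) (x := zi) h6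
  obtain ⟨τ, hτ, hτ'⟩ := exists_perm hp cs w1 hs0
  refine ⟨(y i).toAddMonoidHom, _, hs, ?_⟩
  refine not_dvd_count hr (f := fun s : Fin D.nroots =>
    ((psi (rep cs hp.isCartan w1) Q n (y i).toAddMonoidHom (vec D l s) : ℤ) : ZMod r)) hτ
    (u := ((s0 * Q : ℤ) : ZMod r)) (fun s' => ?_) he' (by rw [Nat.card_fin]; exact hbig) hs
  · have h7 : (Q : ZMod r) ^ n = 1 := by rw [← hn]; exact pow_orderOf_eq_one _
    simp only [hτ']
    rcases hs0 with rfl | rfl
    · rw [one_smul, one_mul, psi_R hw h7]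
    · rw [neg_smul, one_smul, psi_neg, Int.cast_neg, psi_R hw h7]
      push_cast
      ring

/-! ### explicit tables -/

/-- evaluation of a list polynomial -/
def evL (Q : ℤ) : List ℤ → ℤ
  | [] => 0
  | a :: f => a + Q * evL Q f

theorem eval_ofL (Q : ℤ) : ∀ f : List ℤ, (ofL f).eval Q = evL Q f
  | [] => by rw [ofL, evL, Polynomial.eval_zero]
  | a :: f => by
    rw [ofL, evL, Polynomial.eval_add, Polynomial.eval_mul, Polynomial.eval_C, Polynomial.eval_X, eval_ofL Q f]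

theorem evL_mod {r Q Q0 : ℤ} (h : r ∣ Q - Q0) : ∀ f : List ℤ, r ∣ evL Q f - evL Q0 f
  | [] => by rw [evL, evL, sub_self]; exact dvd_zero _
  | a :: f => by
    have e : evL Q (a :: f) - evL Q0 (a :: f) = (Q - Q0) * evL Q f + Q0 * (evL Q f - evL Q0 f) := by
      rw [evL, evL]; ring
    rw [e]
    exact dvd_add (h.mul_right _) ((evL_mod h f).mul_left _)

/-- the check: the functional `b` on the torus of `(∏ word)^k`, `Q ≡ Q0` modulo `r` -/
def SmallCk (D : ChevalleyDatum) (l : ℕ) (Al : List (List ℤ)) (word : List (Fin l)) (k n : ℕ)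
    (m : List (List ℤ)) (b : List ℤ) (r : ℕ) (Q0 c : ℤ) : Prop :=
  (m.length = l ∧ (∀ b ∈ m, b.length = l) ∧ b.length = l) ∧ (∀ i : Fin l, acn Al word k (bas l i) = m.getD i []) ∧
  (∀ i : Fin l, acn Al word (k * n) (bas l i) = bas l i) ∧ c % (r : ℤ) ≠ 0 ∧
  (rootL D l).countP (fun v => (Q0 * evL Q0 (gl l m b n v []) - c) % (r : ℤ) = 0) % r ≠ 0

instance decSmallCk (D : ChevalleyDatum) (l : ℕ) (Al : List (List ℤ)) (word : List (Fin l)) (k n : ℕ)
    (m : List (List ℤ)) (b : List ℤ) (r : ℕ) (Q0 c : ℤ) : Decidable (SmallCk D l Al word k n m b r Q0 c) := by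
  unfold SmallCk
  infer_instance

theorem card_fin_root (P : (Fin l → ℤ) → Prop) :
    Nat.card {s : Fin D.nroots // P (vec D l s)} = {a | IsRoot cs hp.isCartan a ∧ P a}.ncard := by
  rw [← Nat.card_coe_set_eq]
  refine Nat.card_congr (Equiv.ofBijective (fun s : {s : Fin D.nroots // P (vec D l s)} =>
    (⟨vec D l s.1, (isRoot_iff hp cs _).2 ⟨s.1, s.1.2, rfl⟩, s.2⟩ : {a | IsRoot cs hp.isCartan a ∧ P a})) ⟨?_, ?_⟩)
  · intro a b hab
    exact Subtype.ext (Fin.ext (vec_inj hp a.1.2 b.1.2 (congrArg Subtype.val hab)))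
  · rintro ⟨a, ha, hPa⟩
    obtain ⟨s, hs, rfl⟩ := (isRoot_iff hp cs a).1 ha
    exact ⟨⟨⟨s, hs⟩, hPa⟩, rfl⟩

/-- **Explicit counts.** -/
theorem exists_small {Al : List (List ℤ)} (hA : MatList (cartanOf D l) Al) {word : List (Fin l)} {k n : ℕ}
    {m : List (List ℤ)} {b : List ℤ} {r : ℕ} {Q0 c : ℤ} (H : SmallCk D l Al word k n m b r Q0 c) {Q : ℤ}
    (hQ : (r : ℤ) ∣ Q - Q0) :
    ∃ (L : (Fin l → ℤ) →+ ℤ) (c' : ZMod r), c' ≠ 0 ∧
      ¬ r ∣ Nat.card {s : Fin D.nroots //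
        ((psi (rep cs hp.isCartan (cs.wordProd word ^ k)) Q n L (vec D l s) : ℤ) : ZMod r) = c'} := by
  obtain ⟨⟨h1, h2, h3⟩, h4, h5, h6, h7⟩ := H
  refine ⟨(fn l b).toAddMonoidHom, (c : ZMod r), ?_, ?_⟩
  · rw [Ne, ZMod.intCast_zmod_eq_zero_iff_dvd]
    exact fun h => h6 (Int.emod_eq_zero_of_dvd h)
  rw [card_fin_root hp cs (P := fun a =>
    ((psi (rep cs hp.isCartan (cs.wordProd word ^ k)) Q n (fn l b).toAddMonoidHom a : ℤ) : ZMod r) = (c : ZMod r)),
    ncard_root hp cs _ (fun v => decide ((Q0 * evL Q0 (gl l m b n v []) - c) % (r : ℤ) = 0))]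
  · exact fun h => h7 (Nat.mod_eq_zero_of_dvd h)
  · intro v hv
    have hvl : v.length = l := by
      obtain ⟨s, -, rfl⟩ := List.mem_map.1 hv
      rw [List.length_map, List.length_finRange]
    have h8 := eval_gl h1 h2 (rep_single hp cs hA word k h4) h3 Q n v [] hvl
    rw [ofL, Polynomial.eval_zero, mul_zero, add_zero, eval_ofL] at h8
    have h9 : psi (rep cs hp.isCartan (cs.wordProd word ^ k)) Q n (fn l b).toAddMonoidHom (toFn l v) =
        Q * evL Q (gl l m b n v []) := by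
      rw [h8, Finset.mul_sum]
      unfold psi
      refine Finset.sum_congr rfl fun j hj => ?_
      rw [Finset.mem_range] at hj
      have h10 : Q ^ (n - j) = Q * Q ^ (n - 1 - j) := by
        rw [← pow_succ']
        congr 1
        omega
      rw [h10, mul_assoc]
      rfl
    have h10 : (r : ℤ) ∣ Q * evL Q (gl l m b n v []) - Q0 * evL Q0 (gl l m b n v []) := by
      have e : Q * evL Q (gl l m b n v []) - Q0 * evL Q0 (gl l m b n v []) =
          (Q - Q0) * evL Q (gl l m b n v []) + Q0 * (evL Q (gl l m b n v []) - evL Q0 (gl l m b n v [])) := by ring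
      rw [e]
      exact dvd_add (hQ.mul_right _) ((evL_mod hQ _).mul_left _)
    rw [h9, decide_eq_true_iff, ← Int.dvd_iff_emod_eq_zero, ← sub_eq_zero, ← Int.cast_sub,
      ZMod.intCast_zmod_eq_zero_iff_dvd]
    have e : Q * evL Q (gl l m b n v []) - c = (Q0 * evL Q0 (gl l m b n v []) - c) +
      (Q * evL Q (gl l m b n v []) - Q0 * evL Q0 (gl l m b n v [])) := by ring
    rw [e]
    exact (Int.dvd_add_left h10).symm

/-! ### coroots -/

/-- the coroot of the node `i` -/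
def coL {l : ℕ} (A : Fin l → Fin l → ℤ) (i : Fin l) : (Fin l → ℤ) →+ ℤ :=
  AddMonoidHom.mk' (pairing A i) (pairing_add A i)

/-- the check: the coroot of `i` takes the value `2` once, all values at most `2` -/
def NodeCk (D : ChevalleyDatum) (l : ℕ) (i : Fin l) : Prop :=
  (∀ s : Fin D.nroots, (D.cartan i s).natAbs ≤ 2) ∧
    ((List.finRange D.nroots).filter fun s : Fin D.nroots => decide (D.cartan i s = 2)).length = 1

instance decNodeCk (D : ChevalleyDatum) (l : ℕ) (i : Fin l) : Decidable (NodeCk D l i) := by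
  unfold NodeCk
  infer_instance

include hp in
/-- **The count for a coroot.** -/
theorem exists_node {R : Module.End ℤ (Fin l → ℤ)} {Q : ℤ} {n : ℕ} {i : Fin l} (H : NodeCk D l i) {r : ℕ}
    (hr : r.Prime) (hr5 : 5 ≤ r) {κ : ZMod r} (hκ : κ ≠ 0)
    (h : ∀ x, ((psi R Q n (coL (cartanOf D l) i) x : ℤ) : ZMod r) = κ * ((coL (cartanOf D l) i x : ℤ) : ZMod r)) :
    κ * 2 ≠ 0 ∧ ¬ r ∣ Nat.card {s : Fin D.nroots //
      ((psi R Q n (coL (cartanOf D l) i) (vec D l s) : ℤ) : ZMod r) = κ * 2} := by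
  have : Fact r.Prime := ⟨hr⟩
  obtain ⟨h1, h2⟩ := H
  have h20 : (2 : ZMod r) ≠ 0 := by
    intro h0
    have h5 : ((2 : ℕ) : ZMod r) = 0 := by exact_mod_cast h0
    rw [ZMod.natCast_eq_zero_iff] at h5
    have := Nat.le_of_dvd (by norm_num) h5
    omega
  refine ⟨mul_ne_zero hκ h20, ?_⟩
  have h3 : ∀ s : Fin D.nroots, (((psi R Q n (coL (cartanOf D l) i) (vec D l s) : ℤ) : ZMod r) = κ * 2 ↔
      D.cartan i s = 2) := by
    intro s
    rw [h]
    have h4 : coL (cartanOf D l) i (vec D l s) = D.cartan i s := pairing_vec hp i s.2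
    rw [h4]
    constructor
    · intro h5
      have h6 := mul_left_cancel₀ hκ h5
      have h7 : (r : ℤ) ∣ D.cartan i s - 2 := by
        rw [← ZMod.intCast_zmod_eq_zero_iff_dvd, Int.cast_sub, h6]
        norm_num
      have h8 := h1 s
      have h9 : D.cartan i s - 2 = 0 := by
        apply Int.eq_zero_of_abs_lt_dvd h7
        rw [abs_lt]
        constructor <;> omega
      omega
    · intro h5
      rw [h5]
      norm_num
  rw [Nat.card_congr (Equiv.subtypeEquivRight h3), Nat.card_eq_fintype_card, Fintype.card_subtype]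
  have h4 : (Finset.univ.filter fun s : Fin D.nroots => D.cartan i s = 2).card = 1 := h2
  rw [h4]
  exact fun h => hr.one_lt.ne' (Nat.dvd_one.1 h)

end Cfsg.Agent.H406.HT
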