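import Cfsg.Agent.H406.HT.Five
import Cfsg.Agent.H755.PQ.TorTw

/-!
# S4933, part (O): `HasElt` for `²E₆(q)` (helper406)

* `hasElt_twE6` : `5 ≤ p`, `p ∤ q`, `p ∣ |²E₆(q)|`: `HasElt p (twistedE6 K q) q`.
-/

set_option autoImplicit false
set_option linter.unusedSectionVars false
set_option linter.unusedTactic false
set_option linter.unreachableTactic false

namespace Cfsg.Agent.H406.HT

open CoxeterSystem Cfsg Cfsg.Lie Cfsg.Lie.ChevalleyDatum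
open Cfsg.Agent.ChevalleyStructure Cfsg.Agent.ChevalleyStructure.Elts Cfsg.Agent.ChevalleyStructure.CoxeterGeom
  Cfsg.Agent.ChevalleyStructure.CoxeterGeomTypes Cfsg.Agent.ChevalleyStructure.NPerm
open Cfsg.Agent.Tits.Roots Cfsg.Agent.Tits.Core Cfsg.Agent.Nodes Cfsg.Agent.Nodes.Reps Cfsg.Agent.Nodes.BNOf
  Cfsg.Agent.Nodes.RGDChev Cfsg.Agent.Nodes.Bruhat Cfsg.Agent.Nodes.SubComb Cfsg.Agent.Nodes.Coroot
open Cfsg.Agent.KFacts.RgdField Cfsg.Agent.KFacts.RgdChevCoord Cfsg.Agent.BpExc.TorCent Cfsg.Agent.BpExc.TorChev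
open Cfsg.Agent.GpExc.Field Cfsg.Agent.BpExc.Tow Cfsg.Agent.BpExc.TowChev Cfsg.Agent.BpExc.Fr
  Cfsg.Agent.BpExc.LangFr Cfsg.Agent.LangThm Cfsg.Agent.BpExc Cfsg.Agent.H129.TorusChar Cfsg.Agent.H129.TorusMain
open Cfsg.Agent.H129.TwE6Fr (tau embT coe_embT flip6)
open Cfsg.Agent.H630.Exc Cfsg.Agent.H234.HT Cfsg.Agent.H130.WeylCk Cfsg.Agent.H130.PolyL Cfsg.Agent.H130.WeylTab
open Cfsg.Agent.H755.PQ (ord_neg_odd NoBad noBad_E6 cert_data length_ne)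

universe u v

/-- `r ^ m ∣ Q ^ n - 1`, `n` the order of `Q` modulo `r` -/
theorem pow_dvd_of {r m : ℕ} (hr : r.Prime) {Q : ℤ} {n N : ℕ} (hn : orderOf (Q : ZMod r) = n) (hm0 : m ≠ 0)
    (hN : ¬ r ∣ N) (h : ((r ^ m : ℕ) : ℤ) ∣ Q ^ N - 1) : ((r ^ m : ℕ) : ℤ) ∣ Q ^ n - 1 := by
  have hrZ := Nat.prime_iff_prime_int.1 hr
  have hrm : (r : ℤ) ∣ ((r ^ m : ℕ) : ℤ) := Int.natCast_dvd_natCast.2 (dvd_pow_self r hm0)
  obtain ⟨t, rfl⟩ : n ∣ N := by rw [← hn]; exact (dvd_pow_sub_one_iff N).1 (hrm.trans h)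
  have h1 : (∑ i ∈ Finset.range t, (Q ^ n) ^ i) * (Q ^ n - 1) = Q ^ (n * t) - 1 := by
    rw [geom_sum_mul, ← pow_mul]
  rw [← h1] at h
  have h2 : (r : ℤ) ∣ Q ^ n - 1 := (dvd_pow_sub_one_iff n).2 (by rw [hn])
  have h3 : ¬ (r : ℤ) ∣ ∑ i ∈ Finset.range t, (Q ^ n) ^ i := by
    intro h4
    have h5 : (r : ℤ) ∣ ∑ i ∈ Finset.range t, ((Q ^ n) ^ i - 1) :=
      Finset.dvd_sum fun i _ => h2.trans (sub_one_dvd_pow_sub_one (Q ^ n) i)
    rw [Finset.sum_sub_distrib, Finset.sum_const, Finset.card_range, nsmul_eq_mul, mul_one] at h5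
    have h6 := dvd_sub h4 h5
    rw [sub_sub_cancel] at h6
    exact hN ((Int.natCast_dvd_natCast.1 h6).mul_left n)
  have h4 : IsCoprime ((r ^ m : ℕ) : ℤ) (∑ i ∈ Finset.range t, (Q ^ n) ^ i) := by
    rw [Nat.cast_pow]
    exact IsCoprime.pow_left ((hrZ.irreducible.coprime_iff_not_dvd).2 h3)
  exact h4.dvd_of_dvd_mul_left h

theorem neg_mul_cases {r : ℕ} {a b : ℤ} (h : ((a : ℤ) : ZMod r) = ((b : ℤ) : ZMod r)) : (r : ℤ) ∣ a - b := by
  rw [← ZMod.intCast_zmod_eq_zero_iff_dvd, Int.cast_sub, h, sub_self]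

/-! ### tables -/

theorem ck_e3p7 : (∃ c, SmallCk chevE6 6 alE6 [0, 1, 2, 3, 4, 5] 2 6 [[0, 1, 0, 1, 0, 0], [0, 1, 1, 1, 1, 0],
      [1, 0, 1, 1, 1, 0], [0, 0, 0, 0, 0, 1], [-1, -1, -1, -1, -1, -1], [0, 0, -1, -1, 0, 0]] [0, 0, 0, 0, 0, 1] 7 3 c) ∧
    ∃ c, SmallCk chevE6 6 alE6 [0, 1, 2, 3, 4, 5] 2 6 [[0, 1, 0, 1, 0, 0], [0, 1, 1, 1, 1, 0],
      [1, 0, 1, 1, 1, 0], [0, 0, 0, 0, 0, 1], [-1, -1, -1, -1, -1, -1], [0, 0, -1, -1, 0, 0]] [0, 0, 0, 0, 0, 1] 7 5 c :=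
  ⟨⟨2, by decide +kernel⟩, ⟨6, by decide +kernel⟩⟩

theorem ck_e6p7 : (∃ c, SmallCk chevE6 6 alE6 [0, 1, 2, 3, 4, 5] 4 3 [[0, 1, 1, 1, 1, 1], [0, 0, 1, 1, 1, 0],
      [0, 0, 0, 1, 0, 0], [0, 0, -1, -1, 0, 0], [0, -1, 0, -1, -1, 0], [-1, 0, -1, -1, -1, -1]] [0, 0, 0, 0, 0, 1] 7 2 c) ∧
    ∃ c, SmallCk chevE6 6 alE6 [0, 1, 2, 3, 4, 5] 4 3 [[0, 1, 1, 1, 1, 1], [0, 0, 1, 1, 1, 0],
      [0, 0, 0, 1, 0, 0], [0, 0, -1, -1, 0, 0], [0, -1, 0, -1, -1, 0], [-1, 0, -1, -1, -1, -1]] [0, 0, 0, 0, 0, 1] 7 4 c :=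
  ⟨⟨1, by decide +kernel⟩, ⟨3, by decide +kernel⟩⟩

/-- the cube of the Coxeter element -/
def m3 : List (List ℤ) := [[1, 0, 1, 1, 1, 0], [1, 1, 1, 2, 1, 1], [0, 1, 1, 1, 1, 1], [-1, -1, -1, -1, -1, -1],
  [0, 0, -1, -1, 0, 0], [0, -1, 0, -1, -1, 0]]

theorem ck_e4p13 : (∃ c, SmallCk chevE6 6 alE6 [0, 1, 2, 3, 4, 5] 3 4 m3 [0, 0, 0, 0, 0, 1] 13 5 c) ∧
    ∃ c, SmallCk chevE6 6 alE6 [0, 1, 2, 3, 4, 5] 3 4 m3 [0, 0, 0, 0, 0, 1] 13 8 c :=
  ⟨⟨8, by decide +kernel⟩, ⟨1, by decide +kernel⟩⟩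

theorem ck_e4p17 : (∃ c, SmallCk chevE6 6 alE6 [0, 1, 2, 3, 4, 5] 3 4 m3 [0, 0, 0, 0, 0, 1] 17 4 c) ∧
    ∃ c, SmallCk chevE6 6 alE6 [0, 1, 2, 3, 4, 5] 3 4 m3 [0, 0, 0, 0, 0, 1] 17 13 c :=
  ⟨⟨6, by decide +kernel⟩, ⟨7, by decide +kernel⟩⟩

theorem ck_e4p5 : TwoCk chevE6 6 alE6 [0, 1, 2, 3, 4, 5] 3 4 m3 [0, 0, 0, 0, 0, 1] 5 7 24 1 ∧
    TwoCk chevE6 6 alE6 [0, 1, 2, 3, 4, 5] 3 4 m3 [0, 0, 0, 0, 0, 1] 5 18 24 1 :=
  ⟨by decide +kernel, by decide +kernel⟩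

theorem node_E6 : NodeCk chevE6 6 3 := by decide +kernel

/-! ### residues -/

theorem res_7_6 : ∀ x : ZMod 7, x ^ 6 = 1 → x ^ 2 ≠ 1 → x ^ 3 ≠ 1 → x = 3 ∨ x = 5 := by decide
theorem res_7_3 : ∀ x : ZMod 7, x ^ 3 = 1 → x ≠ 1 → x = 2 ∨ x = 4 := by decide
theorem res_13_4 : ∀ x : ZMod 13, x ^ 4 = 1 → x ^ 2 ≠ 1 → x = 5 ∨ x = 8 := by decide
theorem res_17_4 : ∀ x : ZMod 17, x ^ 4 = 1 → x ^ 2 ≠ 1 → x = 4 ∨ x = 13 := by decide
theorem res_25_4 : ∀ x : ZMod 25, x ^ 4 = 1 → x ^ 2 ≠ 1 → x = 7 ∨ x = 18 := by decide +kernel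

theorem ord_ne {r n t : ℕ} {Q : ℤ} (hn : orderOf (Q : ZMod r) = n) (ht : ¬ n ∣ t) : (Q : ZMod r) ^ t ≠ 1 := by
  intro h
  exact ht (by rw [← hn]; exact orderOf_dvd_of_pow_eq_one h)

/-- the orders -/
theorem orders_E6 : ∀ i ∈ [2, 5, 6, 8, 9, 12], ∀ n < 13, n ≠ 0 → n ∣ i → n ∈ [1, 2, 3, 4, 5, 6, 8, 9, 12] := by decide

section Main

variable {W : Type*} [Group W] (cs : CoxeterSystem CoxeterMatrix.E₆ W)
  {k : Type u} [Field k] {p e : ℕ} [hpF : Fact p.Prime] [CharP k p] {σ : MulAut ↥(chevE6.group k)}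
  {X : Type v} [Group X] {e0 : X →* ↥(chevE6.group k)} {d : ℕ} (S : Setup e6T cs p e σ flip6 e0 d)

include S

/-- the conclusion -/
abbrev Concl (e0 : X →* ↥(chevE6.group k)) (r m : ℕ) : Prop :=
  ∃ (x : X) (ζ : k) (ex : chevE6.Idx → ℕ), IsPrimitiveRoot ζ (r ^ m) ∧
    (mt (e0 x)).charpoly = ∏ i, (Polynomial.X - Polynomial.C (ζ ^ ex i)) ∧ Cnt r m ex

/-- large primes -/
theorem big_case [IsAlgClosed k] [Finite W] {Q : ℤ} (hQ : Q = -1 * (p ^ e : ℕ)) {r m n : ℕ} (hr : r.Prime)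
    (hr5 : 5 ≤ r) (hrp : r ≠ p) (hrd : ¬ r ∣ d) (hm2 : 2 ≤ m) (hm : ((r ^ m : ℕ) : ℤ) ∣ Q ^ n - 1)
    (hn : orderOf (Q : ZMod r) = n) (hn1 : n ∈ [3, 4, 5, 6, 8, 9, 12]) {s0 : ℤ} (hs0 : s0 = 1 ∨ s0 = -1) {e' : ℕ}
    (he' : orderOf ((s0 * Q : ℤ) : ZMod r) = e') (hbig : 72 < r * e') : Concl e0 r m := by
  have hQr := not_dvd_Q (p := p) (e := e) Fact.out hr hrp (Or.inr rfl) hQ
  have hn' : n ∈ [1, 2, 3, 4, 5, 6, 8, 9, 12] := by
    have : ∀ n ∈ [3, 4, 5, 6, 8, 9, 12], n ∈ [1, 2, 3, 4, 5, 6, 8, 9, 12] := by decide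
    exact this n hn1
  have hb := noBad_E6 n hn1
  obtain ⟨word, j, c, xs, ys, hC, hc⟩ := hasF_E6 n hn'
  have hnr : n ∣ r - 1 := by rw [← hn]; exact H630.Exc.ord_dvd hr hQr
  have hrc : ¬ (r : ℤ) ∣ c := by
    intro h8
    have h9 := h8.trans hc
    have h10 : (r : ℤ) ∣ ((([2, 5, 6, 8, 9, 12].filter (fun i => n ∣ i)).prod : ℕ) : ℤ) := h9
    have h11 := Int.natCast_dvd_natCast.1 h10
    obtain ⟨i, hi, hri⟩ := (Prime.dvd_prod_iff (Nat.prime_iff.1 hr)).1 h11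
    rw [List.mem_filter] at hi
    exact hb.not_dvd hr (by omega) hnr i hi.1 (of_decide_eq_true hi.2) hri
  obtain ⟨x, y, hx, hy⟩ := cert_data e6T cs lists_E6 (idx_E6 n hn').2 hC
  have hw := rep_pow_eq_one e6T cs lists_E6 word j n hC.1
  obtain ⟨L, c', hc', h1⟩ := exists_big e6T cs hw hr hQr hn (Nat.pos_of_ne_zero (length_ne hb.2.1)) x y c hrc hx hy
    hs0 he' hbig
  exact exists_cnt e6T cs S (Or.inr rfl) (hasTor_tw cs _) hw hQ hr (by omega) hrp hrd hm2 hm hc' h1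

/-- small primes -/
theorem small_case [IsAlgClosed k] [Finite W] {Q : ℤ} (hQ : Q = -1 * (p ^ e : ℕ)) {r m n : ℕ} (hr : r.Prime)
    (hr5 : 5 ≤ r) (hrp : r ≠ p) (hrd : ¬ r ∣ d) (hm2 : 2 ≤ m) (hm : ((r ^ m : ℕ) : ℤ) ∣ Q ^ n - 1)
    {word : List (Fin 6)} {j : ℕ} {mm : List (List ℤ)} {b : List ℤ} {Q0 : ℤ}
    (H : ∃ c, SmallCk chevE6 6 alE6 word j n mm b r Q0 c) (hQ0 : (r : ℤ) ∣ Q - Q0) : Concl e0 r m := by
  obtain ⟨c, H⟩ := H
  obtain ⟨L, c', hc', h1⟩ := exists_small e6T cs lists_E6 H hQ0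
  exact exists_cnt e6T cs S (Or.inr rfl) (hasTor_tw cs _) (rep_pow_eq_one e6T cs lists_E6 word j n H.2.2.1) hQ hr
    (by omega) hrp hrd hm2 hm hc' h1

/-- order 1 -/
theorem one_case [IsAlgClosed k] [Finite W] {Q : ℤ} (hQ : Q = -1 * (p ^ e : ℕ)) {r m : ℕ} (hr : r.Prime)
    (hr5 : 5 ≤ r) (hrp : r ≠ p) (hrd : ¬ r ∣ d) (hm2 : 2 ≤ m) (hm : ((r ^ m : ℕ) : ℤ) ∣ Q ^ 1 - 1) : Concl e0 r m := by
  have hQr := not_dvd_Q (p := p) (e := e) Fact.out hr hrp (Or.inr rfl) hQ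
  have hκ : (Q : ZMod r) ≠ 0 := by rwa [Ne, ZMod.intCast_zmod_eq_zero_iff_dvd]
  obtain ⟨h1, h2⟩ := exists_node e6T (R := rep cs e6T.isCartan 1) (Q := Q) (n := 1) node_E6 hr hr5 hκ (fun x => by
    unfold psi
    rw [Finset.sum_range_one, pow_zero, Module.End.one_apply, Nat.sub_zero, pow_one, Int.cast_mul])
  exact exists_cnt e6T cs S (Or.inr rfl) (hasTor_tw cs _) (by rw [map_one, one_pow]) hQ hr
    (by omega) hrp hrd hm2 hm h1 h2

/-- order 2 -/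
theorem two_case [IsAlgClosed k] [Finite W] {Q : ℤ} (hQ : Q = -1 * (p ^ e : ℕ)) {r m : ℕ} (hr : r.Prime)
    (hr5 : 5 ≤ r) (hrp : r ≠ p) (hrd : ¬ r ∣ d) (hm2 : 2 ≤ m) (hm : ((r ^ m : ℕ) : ℤ) ∣ Q ^ 2 - 1)
    (hn : orderOf (Q : ZMod r) = 2) : Concl e0 r m := by
  have : Fact r.Prime := ⟨hr⟩
  have hQr := not_dvd_Q (p := p) (e := e) Fact.out hr hrp (Or.inr rfl) hQ
  have hκ : (((Q * (Q - 1) : ℤ)) : ZMod r) ≠ 0 := by
    rw [Int.cast_mul, Int.cast_sub, Int.cast_one]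
    refine mul_ne_zero (by rwa [Ne, ZMod.intCast_zmod_eq_zero_iff_dvd]) (sub_ne_zero.2 ?_)
    have h1 := ord_ne (t := 1) hn (by norm_num)
    rwa [pow_one] at h1
  obtain ⟨h1, h2⟩ := exists_node e6T (R := rep cs e6T.isCartan (cs.simple 3)) (Q := Q) (n := 2) node_E6 hr hr5 hκ
    (fun x => by
      have h3 : coL (cartanOf chevE6 6) 3 (rep cs e6T.isCartan (cs.simple 3) x) = - coL (cartanOf chevE6 6) 3 x := by
        rw [rep_simple_eq, map_sub, map_zsmul]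
        have h4 : coL (cartanOf chevE6 6) 3 (sr 3) = 2 := by
          show pairing (cartanOf chevE6 6) 3 (sr 3) = 2
          rw [sr, pairing_single, mul_one]
          exact e6T.isCartan.diag 3
        rw [h4, smul_eq_mul]
        show coL (cartanOf chevE6 6) 3 x - coL (cartanOf chevE6 6) 3 x * 2 = _
        ring
      have h5 : psi (rep cs e6T.isCartan (cs.simple 3)) Q 2 (coL (cartanOf chevE6 6) 3) x =
          (Q * (Q - 1)) * coL (cartanOf chevE6 6) 3 x := by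
        unfold psi
        rw [Finset.sum_range_succ, Finset.sum_range_one, pow_zero, Module.End.one_apply]
        have h6 : 2 - 1 = 1 := rfl
        rw [h6, Nat.sub_zero, pow_one, pow_one, h3]
        ring
      rw [h5, Int.cast_mul])
  have hw : rep cs e6T.isCartan (cs.simple 3) ^ 2 = 1 := by
    rw [← map_pow, pow_two, cs.simple_mul_simple_self, map_one]
  exact exists_cnt e6T cs S (Or.inr rfl) (hasTor_tw cs _) hw hQ hr (by omega) hrp hrd hm2 hm h1 h2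

/-- all cases -/
theorem all_cases [IsAlgClosed k] [Finite W] {Q : ℤ} (hQ : Q = -1 * (p ^ e : ℕ)) {r m n : ℕ} (hr : r.Prime)
    (hr5 : 5 ≤ r) (hrp : r ≠ p) (hrd : ¬ r ∣ d) (hm2 : 2 ≤ m) (hm : ((r ^ m : ℕ) : ℤ) ∣ Q ^ n - 1)
    (hn : orderOf (Q : ZMod r) = n) (hn1 : n ∈ [1, 2, 3, 4, 5, 6, 8, 9, 12]) : Concl e0 r m := by
  have : Fact r.Prime := ⟨hr⟩
  have hr2 : r ≠ 2 := by omega
  have hQr := not_dvd_Q (p := p) (e := e) Fact.out hr hrp (Or.inr rfl) hQ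
  have hnr : n ∣ r - 1 := by rw [← hn]; exact H630.Exc.ord_dvd hr hQr
  have pos : orderOf (((1 : ℤ) * Q : ℤ) : ZMod r) = n := by rw [one_mul, hn]
  have neg : Odd n → orderOf (((-1 : ℤ) * Q : ℤ) : ZMod r) = 2 * n := by
    intro ho
    have h1 : (((-1 : ℤ) * Q : ℤ) : ZMod r) = -(Q : ZMod r) := by push_cast; ring
    rw [h1, ord_neg_odd hr hr2 (by rw [hn]; exact ho), hn]
  have hpw : (Q : ZMod r) ^ n = 1 := by rw [← hn]; exact pow_orderOf_eq_one _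
  simp only [List.mem_cons, List.not_mem_nil, or_false] at hn1
  rcases hn1 with rfl | rfl | rfl | rfl | rfl | rfl | rfl | rfl | rfl
  · exact one_case cs S hQ hr hr5 hrp hrd hm2 hm
  · exact two_case cs S hQ hr hr5 hrp hrd hm2 hm hn
  · -- 3
    by_cases h7 : r = 7
    · subst h7
      rcases res_7_3 _ hpw (by have := ord_ne (t := 1) hn (by norm_num); rwa [pow_one] at this) with h | h
      · exact small_case cs S hQ hr hr5 hrp hrd hm2 hm ck_e6p7.1 (neg_mul_cases (b := 2) (by rw [h]; rfl))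
      · exact small_case cs S hQ hr hr5 hrp hrd hm2 hm ck_e6p7.2 (neg_mul_cases (b := 4) (by rw [h]; rfl))
    · have h13 : 13 ≤ r := by
        by_contra hlt
        have : r < 13 := by omega
        interval_cases r <;> first | omega | (exact absurd hr (by norm_num))
      exact big_case cs S hQ hr hr5 hrp hrd hm2 hm hn (by decide) (Or.inr rfl) (neg (by decide)) (by omega)
  · -- 4
    by_cases h5 : r = 5
    · subst h5
      have h25 : (((5 : ℕ) ^ 2 : ℕ) : ℤ) ∣ Q ^ 4 - 1 := (Int.natCast_dvd_natCast.2 (pow_dvd_pow 5 hm2)).trans hm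
      have h26 : ((Q : ℤ) : ZMod 25) ^ 4 = 1 := by
        have h27 : (((Q ^ 4 - 1 : ℤ)) : ZMod 25) = 0 := (ZMod.intCast_zmod_eq_zero_iff_dvd _ _).2 h25
        push_cast at h27
        exact sub_eq_zero.1 h27
      have h27 : ((Q : ℤ) : ZMod 25) ^ 2 ≠ 1 := by
        intro h28
        apply ord_ne (t := 2) hn (by norm_num)
        have h29 : (((Q ^ 2 - 1 : ℤ)) : ZMod 25) = 0 := by push_cast; rw [h28, sub_self]
        have h30 := (ZMod.intCast_zmod_eq_zero_iff_dvd _ _).1 h29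
        have h31 : ((5 : ℕ) : ℤ) ∣ Q ^ 2 - 1 := (show ((5 : ℕ) : ℤ) ∣ ((25 : ℕ) : ℤ) by norm_num).trans h30
        have h32 := (ZMod.intCast_zmod_eq_zero_iff_dvd (Q ^ 2 - 1) 5).2 h31
        push_cast at h32
        exact sub_eq_zero.1 h32
      rcases res_25_4 _ h26 h27 with h | h
      · exact exists_two e6T cs S (Or.inr rfl) lists_E6 (hasTor_tw cs _) hQ hr hr5 hrp hrd hm2 hm ck_e4p5.1
          (neg_mul_cases (r := 25) (b := 7) (by rw [h]; rfl))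
      · exact exists_two e6T cs S (Or.inr rfl) lists_E6 (hasTor_tw cs _) hQ hr hr5 hrp hrd hm2 hm ck_e4p5.2
          (neg_mul_cases (r := 25) (b := 18) (by rw [h]; rfl))
    by_cases h13 : r = 13
    · subst h13
      rcases res_13_4 _ hpw (ord_ne (t := 2) hn (by norm_num)) with h | h
      · exact small_case cs S hQ hr hr5 hrp hrd hm2 hm ck_e4p13.1 (neg_mul_cases (b := 5) (by rw [h]; rfl))
      · exact small_case cs S hQ hr hr5 hrp hrd hm2 hm ck_e4p13.2 (neg_mul_cases (b := 8) (by rw [h]; rfl))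
    by_cases h17 : r = 17
    · subst h17
      rcases res_17_4 _ hpw (ord_ne (t := 2) hn (by norm_num)) with h | h
      · exact small_case cs S hQ hr hr5 hrp hrd hm2 hm ck_e4p17.1 (neg_mul_cases (b := 4) (by rw [h]; rfl))
      · exact small_case cs S hQ hr hr5 hrp hrd hm2 hm ck_e4p17.2 (neg_mul_cases (b := 13) (by rw [h]; rfl))
    have h19 : 19 ≤ r := by
      by_contra hlt
      have : r < 19 := by omega
      interval_cases r <;> first | omega | (exact absurd hr (by norm_num))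
    exact big_case cs S hQ hr hr5 hrp hrd hm2 hm hn (by decide) (Or.inl rfl) pos (by omega)
  · -- 5
    have h11 : 11 ≤ r := by
      by_contra hlt
      have : r < 11 := by omega
      interval_cases r <;> first | omega | (exact absurd hr (by norm_num))
    exact big_case cs S hQ hr hr5 hrp hrd hm2 hm hn (by decide) (Or.inr rfl) (neg (by decide)) (by omega)
  · -- 6
    by_cases h7 : r = 7
    · subst h7
      rcases res_7_6 _ hpw (ord_ne (t := 2) hn (by norm_num)) (ord_ne (t := 3) hn (by norm_num)) with h | h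
      · exact small_case cs S hQ hr hr5 hrp hrd hm2 hm ck_e3p7.1 (neg_mul_cases (b := 3) (by rw [h]; rfl))
      · exact small_case cs S hQ hr hr5 hrp hrd hm2 hm ck_e3p7.2 (neg_mul_cases (b := 5) (by rw [h]; rfl))
    · have h13 : 13 ≤ r := by
        by_contra hlt
        have : r < 13 := by omega
        interval_cases r <;> first | omega | (exact absurd hr (by norm_num))
      exact big_case cs S hQ hr hr5 hrp hrd hm2 hm hn (by decide) (Or.inl rfl) pos (by omega)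
  · -- 8
    have h17 : 17 ≤ r := by
      by_contra hlt
      have : r < 17 := by omega
      interval_cases r <;> first | omega | (exact absurd hr (by norm_num))
    exact big_case cs S hQ hr hr5 hrp hrd hm2 hm hn (by decide) (Or.inl rfl) pos (by omega)
  · -- 9
    exact big_case cs S hQ hr hr5 hrp hrd hm2 hm hn (by decide) (Or.inr rfl) (neg (by decide)) (by omega)
  · -- 12
    have h13 : 13 ≤ r := by
      by_contra hlt
      have : r < 13 := by omega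
      interval_cases r <;> first | omega | (exact absurd hr (by norm_num))
    exact big_case cs S hQ hr hr5 hrp hrd hm2 hm hn (by decide) (Or.inl rfl) pos (by omega)

end Main

/-- **`HasElt` for `²E₆(q)`.** -/
theorem hasElt_twE6 {K : Type} [Field K] [Fintype K] {q : ℕ} (hq : IsPrimePow q) (hK : Fintype.card K = q ^ 2)
    {r : ℕ} (hr : r.Prime) (hr5 : 5 ≤ r) (hrq : ¬ r ∣ q) (hrG : r ∣ Nat.card ↥(twistedE6 K q)) :
    HasElt r (twistedE6 K q) q := by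
  intro m hm2 hm1 _
  obtain ⟨k, _, _, f, p, hpp, hkp, e', hk, hka, he0', hcF⟩ := H378.TorFin.exists_closure K
  obtain ⟨e, he0, hqe⟩ : ∃ e, 0 < e ∧ q = p ^ e := by
    obtain ⟨r', e, hr', he, rfl⟩ := hq
    have h1 : r' ∣ p ^ e' := by
      rw [← hcF, Nat.card_eq_fintype_card, hK]
      exact (dvd_pow_self r' he.ne').trans (dvd_pow_self _ two_ne_zero)
    have h2 : r' = p := (Nat.prime_dvd_prime_iff_eq hr'.nat_prime hpp.out).1 (hr'.nat_prime.dvd_of_dvd_pow h1)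
    exact ⟨e, he, by rw [h2]⟩
  have hrp : r ≠ p := by
    rintro rfl
    exact hrq (by rw [hqe]; exact dvd_pow_self _ he0.ne')
  have cs := CoxeterMatrix.E₆.toCoxeterSystem
  have hW := finite_W e6T cs
  have S := setup_twE6 cs hk f he0 hqe hq hK
  have hrd : ¬ r ∣ Nat.gcd 3 (q + 1) := by
    intro h
    have h1 := Nat.le_of_dvd (by norm_num) (h.trans (Nat.gcd_dvd_left 3 (q + 1)))
    omega
  obtain ⟨Q, hQ0⟩ : ∃ Q : ℤ, Q = -(q : ℤ) := ⟨_, rfl⟩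
  have hQ : Q = -1 * (p ^ e : ℕ) := by rw [hQ0, hqe]; ring
  have hQr := not_dvd_Q (p := p) (e := e) Fact.out hr hrp (Or.inr rfl) hQ
  have hrF : Fact r.Prime := ⟨hr⟩
  have hpos : 0 < q := hq.pos
  -- the power
  obtain ⟨n, hn⟩ : ∃ n, orderOf (Q : ZMod r) = n := ⟨_, rfl⟩
  have hm : ((r ^ m : ℕ) : ℤ) ∣ Q ^ n - 1 := by
    obtain ⟨e1, he1⟩ : ∃ e1, e1 = orderOf ((q : ℕ) : ZMod r) := ⟨_, rfl⟩
    rw [← he1] at hm1
    have hq1 : ¬ (r : ℤ) ∣ (q : ℤ) := fun h => hrq (Int.natCast_dvd_natCast.1 h)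
    have h1 : e1 ∣ r - 1 := by
      have h2 := H630.Exc.ord_dvd hr hq1
      rw [Int.cast_natCast, ← he1] at h2
      exact h2
    have h2 : ¬ r ∣ 2 * e1 := by
      intro h
      rcases (Nat.Prime.dvd_mul hr).1 h with h | h
      · have := Nat.le_of_dvd (by norm_num) h
        omega
      · have h3 := Nat.le_of_dvd (by omega) (h.trans h1)
        omega
    refine pow_dvd_of hr hn (by omega) h2 ?_
    have h3 : ((r ^ m : ℕ) : ℤ) ∣ ((q ^ e1 - 1 : ℕ) : ℤ) := Int.natCast_dvd_natCast.2 hm1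
    rw [Nat.cast_sub (Nat.one_le_pow _ _ hpos), Nat.cast_pow, Nat.cast_one] at h3
    have h4 : Q ^ (2 * e1) - 1 = ((q : ℤ) ^ e1 - 1) * ((q : ℤ) ^ e1 + 1) := by
      rw [hQ0, pow_mul, neg_sq, ← pow_mul, mul_comm 2 e1, pow_mul]
      ring
    rw [h4]
    exact h3.mul_right _
  -- the order
  have hcard : Nat.gcd 3 (q + 1) * Nat.card ↥(twistedE6 K q) = q ^ 36 *
      (([2, 5, 6, 8, 9, 12].map (fun i => Q ^ i - 1)).prod).natAbs := by
    rw [S1066.result hq hK, hQ0]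
    have ev : ∀ i : ℕ, Even i → ((-(q : ℤ)) ^ i - 1).natAbs = q ^ i - 1 := by
      intro i hi
      rw [hi.neg_pow]
      have h1 : 1 ≤ q ^ i := Nat.one_le_pow _ _ hpos
      have h2 : ((q : ℕ) : ℤ) ^ i - 1 = ((q ^ i - 1 : ℕ) : ℤ) := by push_cast [Nat.cast_sub h1]; ring
      rw [h2, Int.natAbs_natCast]
    have od : ∀ i : ℕ, Odd i → ((-(q : ℤ)) ^ i - 1).natAbs = q ^ i + 1 := by
      intro i hi
      rw [hi.neg_pow]
      have h2 : -((q : ℕ) : ℤ) ^ i - 1 = -((q ^ i + 1 : ℕ) : ℤ) := by push_cast; ring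
      rw [h2, Int.natAbs_neg, Int.natAbs_natCast]
    simp only [List.map_cons, List.map_nil, List.prod_cons, List.prod_nil, mul_one, Int.natAbs_mul]
    rw [ev 2 (by decide), od 5 (by decide), ev 6 (by decide), ev 8 (by decide), od 9 (by decide), ev 12 (by decide)]
    ring
  have hn1 : n ∈ [1, 2, 3, 4, 5, 6, 8, 9, 12] := by
    have h1 : r ∣ q ^ 36 * (([2, 5, 6, 8, 9, 12].map (fun i => Q ^ i - 1)).prod).natAbs := by
      rw [← hcard]
      exact hrG.mul_left _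
    rcases (Nat.Prime.dvd_mul hr).1 h1 with h2 | h2
    · exact absurd (hr.dvd_of_dvd_pow h2) hrq
    · have h3 : (r : ℤ) ∣ ([2, 5, 6, 8, 9, 12].map (fun i => Q ^ i - 1)).prod := Int.natCast_dvd.2 h2
      obtain ⟨a, ha, hra⟩ := (Prime.dvd_prod_iff (Nat.prime_iff_prime_int.1 hr)).1 h3
      obtain ⟨i, hi, rfl⟩ := List.mem_map.1 ha
      have h4 : n ∣ i := by rw [← hn]; exact (dvd_pow_sub_one_iff i).1 hra
      have h5 := lt_E6 i hi
      have h6 := Nat.le_of_dvd h5.1 h4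
      refine orders_E6 i hi n (by omega) ?_ h4
      rintro rfl
      rw [Nat.zero_dvd] at h4
      omega
  obtain ⟨x, ζ, ex, h1, h2, h3⟩ := all_cases cs S hQ hr hr5 hrp hrd hm2 hm hn hn1
  refine ⟨(x : GL chevE6.Idx K), x.2, k, inferInstance, f, ζ, ex, h1, ?_, h3⟩
  show (((x : GL chevE6.Idx K) : Matrix chevE6.Idx chevE6.Idx K).map f).charpoly = _
  rw [← h2, mt, coe_embT, coe_glMap]

end Cfsg.Agent.H406.HT
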